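import Cfsg.Agent.L168.Model

/-!
Finite facts about the model of the simple group of order 168.
-/

set_option autoImplicit false

namespace CfsgLib.L168

/-- A transvection. -/
def t0 : T := ⟨1, 2, 5, by decide⟩
/-- An element of order four. -/
def a4 : T := ⟨1, 3, 6, by decide⟩
/-- An element of order three. -/
def r3 : T := ⟨1, 4, 6, by decide⟩
/-- An element of order seven. -/
def p7 : T := ⟨2, 4, 3, by decide⟩
/-- Transvections fixing a plane pointwise. -/
def u2 : T := ⟨1, 2, 6, by decide⟩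
/-- Transvections with centre `1`. -/
def u1 : T := ⟨1, 3, 4, by decide⟩

theorem invol_conj : ∀ g : T, g ≠ 1 → g * g = 1 → ∃ x : T, x * t0 * x⁻¹ = g := by decide +kernel

theorem to_invol : ∀ r ∈ reps, ∃ x : T, r * (x * r * x⁻¹) ≠ 1 ∧ r * (x * r * x⁻¹) * (r * (x * r * x⁻¹)) = 1 := by
  decide +kernel

/-- Elements with trivial square. -/
def invs : List T := allT.filter fun g => g * g = 1

theorem gen_invs : ∀ g : T, ∃ a ∈ invs, ∃ b ∈ invs, g * a * b ∈ invs := by decide +kernel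

theorem isSimple : IsSimpleGroup T := by
  haveI : Nontrivial T := ⟨⟨t0, 1, by decide +kernel⟩⟩
  refine ⟨fun N hN => or_iff_not_imp_left.2 fun hne => ?_⟩
  haveI := hN
  obtain ⟨⟨g, hgN⟩, hg⟩ := Subgroup.ne_bot_iff_exists_ne_one.1 hne
  have hg1 : g ≠ 1 := fun h => hg (Subtype.ext h)
  obtain ⟨r, hr, x, hx⟩ := exists_rep g hg1
  have hrN : r ∈ N := by
    have h := hN.conj_mem g hgN x⁻¹
    rwa [← hx, show x⁻¹ * (x * r * x⁻¹) * x⁻¹⁻¹ = r by group] at h
  obtain ⟨y, hy1, hy2⟩ := to_invol r hr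
  obtain ⟨z, hz⟩ := invol_conj _ hy1 hy2
  have htN : t0 ∈ N := by
    have h := hN.conj_mem _ (N.mul_mem hrN (hN.conj_mem r hrN y)) z⁻¹
    rwa [← hz, show z⁻¹ * (z * t0 * z⁻¹) * z⁻¹⁻¹ = t0 by group] at h
  have hinv : ∀ a ∈ invs, a ∈ N := by
    intro a ha
    rw [invs, List.mem_filter, decide_eq_true_iff] at ha
    by_cases h1 : a = 1
    · rw [h1]; exact N.one_mem
    · obtain ⟨w, rfl⟩ := invol_conj a h1 ha.2
      exact hN.conj_mem _ htN w
  refine (Subgroup.eq_top_iff' N).2 fun v => ?_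
  obtain ⟨a, ha, b, hb, hab⟩ := gen_invs v
  have h := N.mul_mem (N.mul_mem (hinv _ hab) (N.inv_mem (hinv b hb))) (N.inv_mem (hinv a ha))
  rwa [show v * a * b * b⁻¹ * a⁻¹ = v by group] at h

theorem nonempty_iso {G : Type*} [Group G] [Finite G] [IsSimpleGroup G] (h : Nat.card G = 168) :
    Nonempty (T ≃* G) := by
  haveI := isSimple
  haveI : Fact (Nat.Prime 7) := ⟨by norm_num⟩
  obtain ⟨e⟩ := (CfsgLib.BSW.structured_of_card_168 h).nonempty_iso (F := ZMod 7) (by rw [h, ZMod.card])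
  obtain ⟨f⟩ := (CfsgLib.BSW.structured_of_card_168 card_T).nonempty_iso (F := ZMod 7) (by rw [card_T, ZMod.card])
  exact ⟨f.trans e.symm⟩

theorem orders : ∀ g : T, g = 1 ∨ g * g = 1 ∨ g * g * g = 1 ∨ g * g * (g * g) = 1 ∨ g * g * g * (g * g * g) * g = 1 := by
  decide +kernel

theorem three_conj : ∀ g : T, g ≠ 1 → g * g * g = 1 → ∃ x : T, x * r3 * x⁻¹ = g := by decide +kernel

theorem four_conj : ∀ g : T, g * g ≠ 1 → g * g * (g * g) = 1 → ∃ x : T, x * a4 * x⁻¹ = g := by decide +kernel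

theorem seven_conj : ∀ g : T, g ≠ 1 → g * g * g * (g * g * g) * g = 1 →
    ∃ x : T, x * p7 * x⁻¹ = g ∨ x * p7⁻¹ * x⁻¹ = g := by decide +kernel

theorem p7_not_real : ∀ x : T, x * p7 * x⁻¹ ≠ p7⁻¹ := by decide +kernel

theorem cent_ge : ∀ g : T, g ≠ 1 → 8 ≤ (allT.filter fun x => g * x = x * g).length →
    (g * g = 1 ∧ (allT.filter fun x => g * x = x * g).length = 8) := by decide +kernel

theorem t0_self : ∀ g : T, (∀ x : T, x * t0 = t0 * x → g * x * g⁻¹ * t0 = t0 * (g * x * g⁻¹)) →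
    g * t0 = t0 * g := by decide +kernel

end CfsgLib.L168
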