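import Mathlib
import Cfsg.Agent.BSW.Recog
import Cfsg.Agent.BSW.Order168

/-!
A computable model of the simple group of order 168: invertible triples of vectors in `F₂³`,
vectors being the numbers below 8 under bitwise exclusive or.
-/

set_option autoImplicit false

namespace CfsgLib.L168

/-- Bitwise exclusive or below 8. -/
def vadd (u v : Fin 8) : Fin 8 := ⟨(u.val ^^^ v.val) % 8, Nat.mod_lt _ (by norm_num)⟩

/-- The linear map with columns `a`, `b`, `c`, applied to `v`. -/
def app (a b c v : Fin 8) : Fin 8 :=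
  vadd (vadd (if v.val % 2 = 1 then a else 0) (if v.val / 2 % 2 = 1 then b else 0)) (if 4 ≤ v.val then c else 0)

/-- Independence of three vectors. -/
def Indep (a b c : Fin 8) : Prop := a ≠ 0 ∧ b ≠ 0 ∧ b ≠ a ∧ c ≠ 0 ∧ c ≠ a ∧ c ≠ b ∧ c ≠ vadd a b

instance (a b c : Fin 8) : Decidable (Indep a b c) := by unfold Indep; infer_instance

theorem vadd_comm4 (a b c d : Fin 8) : vadd (vadd a b) (vadd c d) = vadd (vadd a c) (vadd b d) := by
  revert a b c d; decide +kernel

theorem app_vadd (a b c u v : Fin 8) : app a b c (vadd u v) = vadd (app a b c u) (app a b c v) := by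
  revert a b c u v; decide +kernel

theorem app_zero (a b c : Fin 8) : app a b c 0 = 0 := by
  revert a b c; decide +kernel

theorem app_basis (a b c : Fin 8) : app a b c 1 = a ∧ app a b c 2 = b ∧ app a b c 4 = c := by
  revert a b c; decide +kernel

theorem app_ite (a b c : Fin 8) (p : Prop) [Decidable p] (u : Fin 8) :
    app a b c (if p then u else 0) = if p then app a b c u else 0 := by
  split_ifs with h
  · rfl
  · exact app_zero a b c

/-- The group. -/
structure T where
  a : Fin 8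
  b : Fin 8
  c : Fin 8
  indep : Indep a b c
deriving DecidableEq

theorem T.ext' {g h : T} (h1 : g.a = h.a) (h2 : g.b = h.b) (h3 : g.c = h.c) : g = h := by
  cases g; cases h; subst h1; subst h2; subst h3; rfl

/-- Evaluation. -/
def T.ev (g : T) (v : Fin 8) : Fin 8 := app g.a g.b g.c v

theorem indep_iff (a b c : Fin 8) : Indep a b c ↔ ∀ v, app a b c v = 0 → v = 0 := by
  revert a b c; decide +kernel

theorem app_comp (a b c d e f v : Fin 8) :
    app (app a b c d) (app a b c e) (app a b c f) v = app a b c (app d e f v) := by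
  rw [show app d e f v = vadd (vadd (if v.val % 2 = 1 then d else 0) (if v.val / 2 % 2 = 1 then e else 0))
    (if 4 ≤ v.val then f else 0) from rfl, app_vadd, app_vadd, app_ite, app_ite, app_ite]
  rfl

instance : Mul T :=
  ⟨fun g h => ⟨g.ev h.a, g.ev h.b, g.ev h.c, (indep_iff _ _ _).2 fun v hv => by
    rw [T.ev, T.ev, T.ev, app_comp] at hv
    exact (indep_iff _ _ _).1 h.indep v ((indep_iff _ _ _).1 g.indep _ hv)⟩⟩

theorem ev_mul (g h : T) (v : Fin 8) : (g * h).ev v = g.ev (h.ev v) := app_comp _ _ _ _ _ _ v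

instance : One T := ⟨⟨1, 2, 4, by decide⟩⟩

theorem ev_one (v : Fin 8) : (1 : T).ev v = v := by
  revert v; decide +kernel

/-- Preimage of a vector. -/
def T.pre (g : T) (v : Fin 8) : Fin 8 :=
  if g.ev 0 = v then 0 else if g.ev 1 = v then 1 else if g.ev 2 = v then 2 else if g.ev 3 = v then 3
  else if g.ev 4 = v then 4 else if g.ev 5 = v then 5 else if g.ev 6 = v then 6 else 7

theorem pre_spec (a b c : Fin 8) (h : Indep a b c) :
    Indep ((⟨a, b, c, h⟩ : T).pre 1) ((⟨a, b, c, h⟩ : T).pre 2) ((⟨a, b, c, h⟩ : T).pre 4) ∧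
      app ((⟨a, b, c, h⟩ : T).pre 1) ((⟨a, b, c, h⟩ : T).pre 2) ((⟨a, b, c, h⟩ : T).pre 4) a = 1 ∧
      app ((⟨a, b, c, h⟩ : T).pre 1) ((⟨a, b, c, h⟩ : T).pre 2) ((⟨a, b, c, h⟩ : T).pre 4) b = 2 ∧
      app ((⟨a, b, c, h⟩ : T).pre 1) ((⟨a, b, c, h⟩ : T).pre 2) ((⟨a, b, c, h⟩ : T).pre 4) c = 4 := by
  revert a b c h; decide +kernel

instance : Inv T := ⟨fun g => ⟨g.pre 1, g.pre 2, g.pre 4, (pre_spec g.a g.b g.c g.indep).1⟩⟩

instance : Group T := Group.ofLeftAxioms
  (fun g h k => T.ext' (ev_mul g h k.a) (ev_mul g h k.b) (ev_mul g h k.c))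
  (fun g => T.ext' (ev_one g.a) (ev_one g.b) (ev_one g.c))
  (fun g => T.ext' (pre_spec g.a g.b g.c g.indep).2.1 (pre_spec g.a g.b g.c g.indep).2.2.1
    (pre_spec g.a g.b g.c g.indep).2.2.2)

/-- All elements. -/
def allT : List T :=
  (List.finRange 8).flatMap fun a => (List.finRange 8).flatMap fun b => (List.finRange 8).filterMap fun c =>
    if h : Indep a b c then some ⟨a, b, c, h⟩ else none

theorem mem_allT (g : T) : g ∈ allT := by
  simp only [allT, List.mem_flatMap, List.mem_filterMap]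
  exact ⟨g.a, List.mem_finRange _, g.b, List.mem_finRange _, g.c, List.mem_finRange _, by rw [dif_pos g.indep]⟩

theorem nodup_allT : allT.Nodup := by decide +kernel

instance : Fintype T := ⟨⟨allT, nodup_allT⟩, mem_allT⟩

theorem card_T : Nat.card T = 168 := by
  rw [Nat.card_eq_fintype_card]
  decide +kernel

/-- Class representatives. -/
def reps : List T :=
  [⟨1, 2, 5, by decide⟩, ⟨2, 4, 1, by decide⟩, ⟨1, 3, 6, by decide⟩, ⟨2, 4, 3, by decide⟩, ⟨2, 4, 5, by decide⟩]

theorem exists_rep : ∀ g : T, g ≠ 1 → ∃ r ∈ reps, ∃ x : T, x * r * x⁻¹ = g := by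
  decide +kernel

end CfsgLib.L168
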